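import Mathlib
import Cfsg.Agent.TID.X.Basic
import Cfsg.Agent.S2187

/-!
# TID: the row `KBig` (helper30)
-/

set_option autoImplicit false

namespace Cfsg.Agent.TID.X

open Cfsg Subgroup

universe u

/-- **The row `KBig`** does not occur. -/
theorem kBig : KBig.{u} := by
  intro p hp X _ _ S D h hΦ
  obtain ⟨hp2, r, hr, hpr, h7, hS⟩ := hΦ
  have : Fact r.Prime := ⟨hr⟩
  have hn := h.soc.normal
  exfalso
  obtain ⟨V, hVD, hVc, -, hVp, hV2⟩ := Rk2.exists h.loc.rk
  have hfix : ∀ (v : X) (s : S), (MulAut.conjNormal v : MulAut S) s = s → (s : X) * v = v * s := by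
    intro v s h1
    have h2 := congrArg Subtype.val h1
    rw [MulAut.conjNormal_apply] at h2
    exact (mul_inv_eq_iff_eq_mul.1 h2).symm
  have hinj : Function.Injective (MulAut.conjNormal : X →* MulAut S) := by
    rw [injective_iff_map_eq_one]
    intro v hv
    exact Soc.eq_one h.soc fun s hs => hfix v ⟨s, hs⟩ (DFunLike.congr_fun hv ⟨s, hs⟩)
  have hcard : Nat.card (V.map (MulAut.conjNormal : X →* MulAut S)) = p ^ 2 := by
    rw [card_map_of_injective hinj, hV2]
  have h1 := S2187.result r hS p hp2 hpr h7 (V.map (MulAut.conjNormal : X →* MulAut S))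
    ⟨Subgroup.map_isMulCommutative _ _, by
      rintro _ ⟨v, hv, rfl⟩
      rw [← map_pow, hVp v hv, map_one]⟩ hcard.ge
  refine AS.not_le h (subgroupOf_eq_top.1 (top_le_iff.1 ?_))
  rw [← h1, closure_le]
  rintro g ⟨F, hFE, hF, hg⟩
  have hF1 : F ≠ ⊥ := by
    rintro rfl
    rw [bot_subgroupOf, index_bot, hcard, pow_two] at hF
    have h2 := hp.out.one_lt
    nlinarith
  obtain ⟨φ, hφ, hφ1⟩ := F.bot_or_exists_ne_one.resolve_left hF1
  obtain ⟨v, hv, rfl⟩ := hFE hφ
  exact mem_norm h.loc.ti (hVD hv) (fun h2 => hφ1 (by rw [h2, map_one])) (hfix v g (hg _ hφ))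

end Cfsg.Agent.TID.X
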